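import Cfsg.Agent.H181.Bs.Sp

/-!
# S5733, BS25: reducible subgroups of the symplectic groups

`sp_red` : there are `c > 0`, `n₀` such that in every symplectic space `V` of dimension at least `n₀` at least `c |Sp(V)|`
elements of `Sp(V)` fix no image of `Y₀`, for every totally isotropic or nondegenerate subspace `Y₀ ≠ ⊥, ⊤`.
The block counts (BS07) and the count of the large block elements (BS10) are hypotheses `BlockSp`, `CountSp`.
-/

set_option autoImplicit false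

namespace Cfsg.Agent.H181.Bs

open Cfsg.Agent.H847.Bs Module

universe u v

/-- BS07, type minus -/
def BlockSp : Prop :=
  ∀ (F : Type u) (V : Type v) [Field F] [Finite F] [AddCommGroup V] [Module F V] [Module.Finite F V] (Φ : Frm F V),
    IsSp Φ → ∀ j : ℕ, 1 ≤ j → finrank F V = 2 * j → ar j / (2 * j) * Nat.card Φ.Iso ≤ Nat.card ↥Φ.Bm

/-- BS10 -/
def CountSp : Prop :=
  ∃ c : ℝ, 0 < c ∧ ∃ K₀ : ℕ, ∀ (F : Type u) (V : Type v) [Field F] [Finite F] [AddCommGroup V] [Module F V]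
    [Module.Finite F V] (Φ : Frm F V), IsSp Φ → ∀ n K : ℕ, K₀ ≤ K → finrank F V = 2 * n → K < n →
      c / (K + 1) * Nat.card Φ.Iso ≤ Nat.card ↥(Φ.SS K (2 * n))

section

variable {F : Type u} {V : Type v} [Field F] [AddCommGroup V] [Module F V] {Φ : Frm F V}

theorem ndOn_map {Y : Submodule F V} (hY : Φ.NdOn Y) {g : V ≃ₗ[F] V} (hg : g ∈ Φ.Iso) :
    Φ.NdOn (Y.map (g : V →ₗ[F] V)) := by
  rintro _ ⟨w, hw, rfl⟩ h2
  have h3 : w = 0 := by
    refine hY w hw fun w' hw' => ?_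
    have h4 := h2 (g w') (Submodule.mem_map_of_mem hw')
    have h5 : Φ.B (g w) (g w') = 0 := h4
    rwa [hg.1] at h5
  rw [h3, map_zero]

theorem dec_map {D U : Submodule F V} (h : Φ.Dec D U) {g : V ≃ₗ[F] V} (hg : g ∈ Φ.Iso) :
    Φ.Dec (D.map (g : V →ₗ[F] V)) (U.map (g : V →ₗ[F] V)) where
  compl := by
    refine IsCompl.of_eq ?_ ?_
    · rw [← Submodule.map_inf _ g.injective, h.compl.inf_eq_bot, Submodule.map_bot]
    · rw [← Submodule.map_sup, h.compl.sup_eq_top, Submodule.map_top]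
      exact LinearEquiv.range g
  orth := by
    rintro _ ⟨x, hx, rfl⟩ _ ⟨y, hy, rfl⟩
    show Φ.B (g x) (g y) = 0
    rw [hg.1]
    exact h.orth x hx y hy

theorem lb_of_bm {K : ℕ} (hK : K < finrank F V) {y : V ≃ₗ[F] V} (hy : y ∈ Φ.Bm) : LB K y := by
  intro Z hZ hZ0
  rcases hy.2.min Z le_top hZ with h | h
  · exact absurd h hZ0
  · rw [h, finrank_top]
    exact hK

theorem ar_ge {j : ℕ} (hj : 16 ≤ j) : (1 / 2 : ℝ) ≤ ar j := by
  have h1 : (4 / 5 : ℝ) ^ j ≤ (4 / 5 : ℝ) ^ 16 := pow_le_pow_of_le_one (by norm_num) (by norm_num) hj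
  have h2 : (4 / 5 : ℝ) ^ 16 ≤ 1 / 32 := by norm_num
  rw [ar]
  linarith

variable [Finite F] [Module.Finite F V]

theorem core (h07 : BlockSp.{u, v}) {c₁ : ℝ} (hc₁ : 0 < c₁) {K₀ : ℕ}
    (h10 : ∀ (F : Type u) (V : Type v) [Field F] [Finite F] [AddCommGroup V] [Module F V]
      [Module.Finite F V] (Φ : Frm F V), IsSp Φ → ∀ n K : ℕ, K₀ ≤ K → finrank F V = 2 * n → K < n →
      c₁ / (K + 1) * Nat.card Φ.Iso ≤ Nat.card ↥(Φ.SS K (2 * n)))
    (hΦ : IsSp Φ) {n k : ℕ} (hn : finrank F V = 2 * n) (hn0 : K₀ + 50 ≤ n) (hk1 : 1 ≤ k)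
    (Y₀ : Submodule F V) (hY : finrank F Y₀ ≤ 2 * k) (hY' : finrank F Y₀ ≤ n)
    (hk : ∀ W, Φ.NdOn W → finrank F W < 2 * k → ∀ g ∈ Φ.Iso, ¬ Y₀.map ((g : V ≃ₗ[F] V) : V →ₗ[F] V) ≤ W) :
    min (min (c₁ / 3) (c₁ / (K₀ + 1))) (1 / 24) * Nat.card Φ.Iso ≤
      Nat.card {x : V ≃ₗ[F] V // x ∈ Φ.Iso ∧ ∀ g ∈ Φ.Iso, ¬ Inv x (Y₀.map ((g : V ≃ₗ[F] V) : V →ₗ[F] V))} := by
  have : Finite V := Module.finite_of_finite F
  have hI : (0 : ℝ) ≤ Nat.card Φ.Iso := Nat.cast_nonneg _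
  -- the counts as needed
  have hSS : ∀ (K s : ℕ), K₀ ≤ K → K < n - s → ∀ U : Submodule F V, Φ.NdOn U → finrank F U = 2 * (n - s) →
      c₁ / (K + 1) * Nat.card (Φ.on U).Iso ≤ Nat.card ↥{y : U ≃ₗ[F] U | y ∈ (Φ.on U).Iso ∧ LB K y} := by
    intro K s hK hs U hU hUr
    refine le_trans (h10 F U (Φ.on U) (isSp_on hΦ hU) (n - s) K hK hUr hs) ?_
    have h1 : Nat.card ↥((Φ.on U).SS K (2 * (n - s))) ≤
        Nat.card ↥{y : U ≃ₗ[F] U | y ∈ (Φ.on U).Iso ∧ LB K y} := by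
      refine Nat.card_le_card_of_injective (fun y => ⟨y.1, y.2.1, ?_⟩) ?_
      · intro Z hZ hZ0
        exact y.2.2.1 Z hZ hZ0
      · intro a b e
        exact Subtype.ext (Subtype.mk.inj e)
    exact_mod_cast h1
  by_cases h3k : 3 * k ≤ n
  · by_cases h2k : K₀ ≤ 2 * k
    · have h1 := sum_le hΦ hn (K := 2 * k) (k := k) (Finset.range k) (fun _ => c₁ / (2 * k + 1)) (by
        intro s hs
        rw [Finset.mem_range] at hs
        refine ⟨by omega, hs, by omega⟩) Y₀ hY hk (by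
        intro s hs U hU hUr
        rw [Finset.mem_range] at hs
        have := hSS (2 * k) s h2k (by omega) U hU hUr
        push_cast at this
        exact this)
      refine le_trans ?_ h1
      refine mul_le_mul_of_nonneg_right ?_ hI
      rw [Finset.sum_const, Finset.card_range, nsmul_eq_mul]
      refine le_trans (min_le_left _ _) (le_trans (min_le_left _ _) ?_)
      have hkr : (1 : ℝ) ≤ k := by exact_mod_cast hk1
      rw [← mul_div_assoc, div_le_div_iff₀ (by norm_num) (by positivity)]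
      nlinarith
    · push Not at h2k
      have h1 := sum_le hΦ hn (K := K₀) (k := k) {0} (fun _ => c₁ / (K₀ + 1)) (by
        intro s hs
        rw [Finset.mem_singleton] at hs
        subst hs
        exact ⟨by omega, by omega, by omega⟩) Y₀ (by omega) hk (by
        intro s hs U hU hUr
        rw [Finset.mem_singleton] at hs
        subst hs
        exact hSS K₀ 0 le_rfl (by omega) U hU hUr)
      refine le_trans ?_ h1
      refine mul_le_mul_of_nonneg_right ?_ hI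
      rw [Finset.sum_singleton]
      exact le_trans (min_le_left _ _) (min_le_right _ _)
  · have h1 := sum_le hΦ hn (K := n) (k := k) (Finset.range (n / 3)) (fun _ => 1 / (4 * n)) (by
      intro s hs
      rw [Finset.mem_range] at hs
      refine ⟨by omega, by omega, by omega⟩) Y₀ hY' hk (by
      intro s hs U hU hUr
      rw [Finset.mem_range] at hs
      have hj : 16 ≤ n - s := by omega
      have h2 := h07 F U (Φ.on U) (isSp_on hΦ hU) (n - s) (by omega) hUr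
      have h3 : Nat.card ↥(Φ.on U).Bm ≤ Nat.card ↥{y : U ≃ₗ[F] U | y ∈ (Φ.on U).Iso ∧ LB n y} := by
        refine Nat.card_le_card_of_injective (fun y => ⟨y.1, y.2.1, lb_of_bm (by omega) y.2⟩) ?_
        intro a b e
        exact Subtype.ext (Subtype.mk.inj e)
      have h3' : (Nat.card ↥(Φ.on U).Bm : ℝ) ≤ Nat.card ↥{y : U ≃ₗ[F] U | y ∈ (Φ.on U).Iso ∧ LB n y} := by
        exact_mod_cast h3
      refine le_trans ?_ (le_trans h2 h3')
      refine mul_le_mul_of_nonneg_right ?_ (Nat.cast_nonneg _)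
      have h4 := ar_ge hj
      have h5 : ((n - s : ℕ) : ℝ) ≤ n := by exact_mod_cast Nat.sub_le n s
      have h6 : (0 : ℝ) < ((n - s : ℕ) : ℝ) := by
        have : 0 < n - s := by omega
        exact_mod_cast this
      have h7 : (0 : ℝ) < n := lt_of_lt_of_le h6 h5
      rw [div_le_div_iff₀ (by positivity) (by positivity)]
      nlinarith)
    refine le_trans ?_ h1
    refine mul_le_mul_of_nonneg_right ?_ hI
    rw [Finset.sum_const, Finset.card_range, nsmul_eq_mul]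
    refine le_trans (min_le_right _ _) ?_
    have h8 : n ≤ 6 * (n / 3) := by omega
    have h9 : (n : ℝ) ≤ 6 * ((n / 3 : ℕ) : ℝ) := by exact_mod_cast h8
    have h7 : (0 : ℝ) < n := by
      have : 0 < n := by omega
      exact_mod_cast this
    rw [mul_one_div, div_le_div_iff₀ (by norm_num) (by positivity)]
    linarith

end

/-- **BS25**: reducible subgroups of the symplectic groups. -/
theorem sp_red (h07 : BlockSp.{u, v}) (h10 : CountSp.{u, v}) :
    ∃ c : ℝ, 0 < c ∧ ∃ n₀ : ℕ, ∀ (F : Type u) (V : Type v) [Field F] [Finite F] [AddCommGroup V] [Module F V]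
      [Module.Finite F V] (Φ : Frm F V), IsSp Φ → n₀ ≤ finrank F V → ∀ Y₀ : Submodule F V, Y₀ ≠ ⊥ → Y₀ ≠ ⊤ →
        (Φ.TI Y₀ ∨ Φ.NdOn Y₀) → c * Nat.card Φ.Iso ≤
          Nat.card {x : V ≃ₗ[F] V // x ∈ Φ.Iso ∧ ∀ g ∈ Φ.Iso, ¬ Inv x (Y₀.map ((g : V ≃ₗ[F] V) : V →ₗ[F] V))} := by
  obtain ⟨c₁, hc₁, K₀, h10⟩ := h10
  refine ⟨min (min (c₁ / 3) (c₁ / (K₀ + 1))) (1 / 24), ?_, 2 * (K₀ + 50), ?_⟩
  · refine lt_min (lt_min (by positivity) (by positivity)) (by norm_num)
  intro F V _ _ _ _ _ Φ hΦ hn0 Y₀ hY0 hY1 hY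
  have : Finite V := Module.finite_of_finite F
  obtain ⟨n, hn⟩ := exists_finrank_eq hΦ
  have hpos : 0 < finrank F Y₀ := by
    rw [Nat.pos_iff_ne_zero]
    intro h
    exact hY0 (Submodule.finrank_eq_zero.mp h)
  have htop : Φ.NdOn ⊤ := fun x _ h => hΦ.nd x fun y => h y Submodule.mem_top
  -- nondegenerate subspaces of dimension at most `n`
  have key : ∀ Y : Submodule F V, Y ≠ ⊥ → Φ.NdOn Y → finrank F Y ≤ n →
      min (min (c₁ / 3) (c₁ / (K₀ + 1))) (1 / 24) * Nat.card Φ.Iso ≤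
        Nat.card {x : V ≃ₗ[F] V // x ∈ Φ.Iso ∧ ∀ g ∈ Φ.Iso, ¬ Inv x (Y.map ((g : V ≃ₗ[F] V) : V →ₗ[F] V))} := by
    intro Y hYb hYnd hYn
    obtain ⟨k, hk⟩ := exists_finrank_ndOn hΦ hYnd
    have hYpos : 0 < finrank F Y := by
      rw [Nat.pos_iff_ne_zero]
      intro h
      exact hYb (Submodule.finrank_eq_zero.mp h)
    refine core h07 hc₁ h10 hΦ hn (by omega) (k := k) (by omega) Y hk.le hYn ?_
    intro W _ hW2 g _ hle
    have h1 := Submodule.finrank_mono hle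
    rw [finrank_map_equiv] at h1
    omega
  rcases hY with hTI | hnd
  · have h1 := two_finrank_le_of_ti hΦ hTI (le_top (a := Y₀)) htop
    rw [finrank_top, hn] at h1
    refine core h07 hc₁ h10 hΦ hn (by omega) (k := finrank F Y₀) hpos Y₀ (by omega) (by omega) ?_
    intro W hW hW2 g hg hle
    have h2 := two_finrank_le_of_ti hΦ (ti_map hTI hg) hle hW
    rw [finrank_map_equiv] at h2
    omega
  · by_cases hYn : finrank F Y₀ ≤ n
    · exact key Y₀ hY0 hnd hYn
    · have hd := dec_perp hΦ.s hnd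
      have h2 : finrank F Y₀ + finrank F (perp hΦ.s Y₀) = finrank F V :=
        Submodule.finrank_add_eq_of_isCompl hd.compl
      have h3 : perp hΦ.s Y₀ ≠ ⊥ := by
        intro h
        apply hY1
        have h4 := hd.compl.sup_eq_top
        rwa [h, sup_bot_eq] at h4
      refine le_trans (key _ h3 (ndOn_right hΦ.nd hd) (by omega)) ?_
      have h5 : Nat.card {x : V ≃ₗ[F] V // x ∈ Φ.Iso ∧
            ∀ g ∈ Φ.Iso, ¬ Inv x ((perp hΦ.s Y₀).map ((g : V ≃ₗ[F] V) : V →ₗ[F] V))} ≤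
          Nat.card {x : V ≃ₗ[F] V // x ∈ Φ.Iso ∧ ∀ g ∈ Φ.Iso, ¬ Inv x (Y₀.map ((g : V ≃ₗ[F] V) : V →ₗ[F] V))} := by
        refine Nat.card_le_card_of_injective (fun x => ⟨x.1, x.2.1, ?_⟩) ?_
        · intro g hg hinv
          exact x.2.2 g hg (inv_right Φ hΦ.nd (dec_map hd hg) x.2.1 hinv)
        · intro a b e
          exact Subtype.ext (Subtype.mk.inj e)
      exact_mod_cast h5

end Cfsg.Agent.H181.Bs
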